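import Cfsg.Agent.Lib.As3.AM

/-! Facts about the parabolic subgroups of `L₄(3)` (helper7). -/

set_option autoImplicit false
set_option maxRecDepth 1000000
set_option maxHeartbeats 0

namespace Cfsg.Lib.As3

open Cfsg.Lib.Calc Cfsg.Lib.Grp Cfsg.Lib.T2 Cfsg.Lib.T3

/-- a formula -/
def am_cD_f : Fm := .all 9 40 [(.l 8, .l 8), (.l 9, .l 9), (.l 10, .l 10)] (.mem 3 (.l 40))

theorem am_cD_ev : am.eval am_cD_f = true := by decide +kernel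

theorem am_cD {G : Type*} [Group G] {γ : ℕ → G} {k : ℕ} {N : List W} (g : Gf am γ k N)
    (e : tyB am k N am_cD_f = true := by decide +kernel) :
    ∀ e ∈ genW γ (am.ws 9), e * γ 8 = γ 8 * e → e * γ 9 = γ 9 * e → e * γ 10 = γ 10 * e → e ∈ genW γ (am.ws 3) :=
  g.transfer e am_cD_ev

/-- a formula -/
def am_cC_f : Fm := .all 1 40 [(.l 10, .l 10)] (.mem 8 (.l 40))

theorem am_cC_ev : am.eval am_cC_f = true := by decide +kernel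

theorem am_cC {G : Type*} [Group G] {γ : ℕ → G} {k : ℕ} {N : List W} (g : Gf am γ k N)
    (e : tyB am k N am_cC_f = true := by decide +kernel) :
    ∀ e ∈ genW γ (am.ws 1), e * γ 10 = γ 10 * e → e ∈ genW γ (am.ws 8) :=
  g.transfer e am_cC_ev

/-- a formula -/
def am_pl_f : Fm := .all 5 40 [] (.or (.mem 3 (.l 40)) (.or (.mem 4 (.l 40)) (.or (.not (.eq (.mul (.l 40) (.mul (.mul (.mul (.l 7) (.l 4)) (.l 40)) (.inv (.mul (.l 7) (.l 4))))) (.mul (.mul (.mul (.mul (.l 7) (.l 4)) (.l 40)) (.inv (.mul (.l 7) (.l 4)))) (.l 40)))) (.or (.not (.eq (.mul (.l 40) (.mul (.mul (.l 1) (.l 40)) (.inv (.l 1)))) (.mul (.mul (.mul (.l 1) (.l 40)) (.inv (.l 1))) (.l 40)))) (.not (.eq (.mul (.l 40) (.mul (.mul (.mul (.mul (.l 1) (.l 7)) (.l 4)) (.l 40)) (.inv (.mul (.mul (.l 1) (.l 7)) (.l 4))))) (.mul (.mul (.mul (.mul (.mul (.l 1) (.l 7)) (.l 4)) (.l 40))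 (.inv (.mul (.mul (.l 1) (.l 7)) (.l 4)))) (.l 40))))))))

theorem am_pl_ev : am.eval am_pl_f = true := by decide +kernel

theorem am_pl {G : Type*} [Group G] {γ : ℕ → G} {k : ℕ} {N : List W} (g : Gf am γ k N)
    (e : tyB am k N am_pl_f = true := by decide +kernel) :
    ∀ q ∈ genW γ (am.ws 5), q ∈ genW γ (am.ws 3) ∨ q ∈ genW γ (am.ws 4) ∨ q * (γ 7 * γ 4 * q * (γ 7 * γ 4)⁻¹) ≠ γ 7 * γ 4 * q * (γ 7 * γ 4)⁻¹ * q ∨ q * (γ 1 * q * (γ 1)⁻¹) ≠ γ 1 * q * (γ 1)⁻¹ * q ∨ q * (γ 1 * γ 7 * γ 4 * q * (γ 1 * γ 7 * γ 4)⁻¹) ≠ γ 1 * γ 7 * γ 4 * q * (γ 1 * γ 7 * γ 4)⁻¹ * q :=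
  g.transfer e am_pl_ev

/-- a formula -/
def am_Y1_f : Fm := .all 12 40 [] (.or (.one (.l 40)) (.ex 29 41 [(.l 10, .l 40)] (.tt)))

theorem am_Y1_ev : am.eval am_Y1_f = true := by decide +kernel

theorem am_Y1 {G : Type*} [Group G] {γ : ℕ → G} {k : ℕ} {N : List W} (g : Gf am γ k N)
    (e : tyB am k N am_Y1_f = true := by decide +kernel) :
    ∀ e ∈ genW γ (am.ws 12), e = 1 ∨ (∃ k ∈ genW γ (am.ws 29), k * γ 10 = e * k ∧ True) :=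
  g.transfer e am_Y1_ev

/-- a formula -/
def am_J1_f : Fm := .all 6 40 [] (.or (.mem 5 (.l 40)) (.or (.mem 5 (.mul (.mul (.l 6) (.l 40)) (.inv (.l 6)))) (.or (.mem 5 (.mul (.mul (.mul (.l 6) (.l 2)) (.l 40)) (.inv (.mul (.l 6) (.l 2))))) (.mem 5 (.mul (.mul (.mul (.l 6) (.inv (.l 2))) (.l 40)) (.inv (.mul (.l 6) (.inv (.l 2)))))))))

theorem am_J1_ev : am.eval am_J1_f = true := by decide +kernel

theorem am_J1 {G : Type*} [Group G] {γ : ℕ → G} {k : ℕ} {N : List W} (g : Gf am γ k N)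
    (e : tyB am k N am_J1_f = true := by decide +kernel) :
    ∀ e ∈ genW γ (am.ws 6), e ∈ genW γ (am.ws 5) ∨ γ 6 * e * (γ 6)⁻¹ ∈ genW γ (am.ws 5) ∨ γ 6 * γ 2 * e * (γ 6 * γ 2)⁻¹ ∈ genW γ (am.ws 5) ∨ γ 6 * (γ 2)⁻¹ * e * (γ 6 * (γ 2)⁻¹)⁻¹ ∈ genW γ (am.ws 5) :=
  g.transfer e am_J1_ev

/-- a formula -/
def am_cJ_f : Fm := .all 8 40 [(.l 9, .l 9), (.l 3, .l 3)] (.mem 6 (.l 40))

theorem am_cJ_ev : am.eval am_cJ_f = true := by decide +kernel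

theorem am_cJ {G : Type*} [Group G] {γ : ℕ → G} {k : ℕ} {N : List W} (g : Gf am γ k N)
    (e : tyB am k N am_cJ_f = true := by decide +kernel) :
    ∀ e ∈ genW γ (am.ws 8), e * γ 9 = γ 9 * e → e * γ 3 = γ 3 * e → e ∈ genW γ (am.ws 6) :=
  g.transfer e am_cJ_ev

/-- a formula -/
def am_Jab_f : Fm := .all 6 40 [] (.and (.one (.pow (.l 40) 3)) (.all 6 41 [] (.eq (.mul (.l 40) (.l 41)) (.mul (.l 41) (.l 40)))))

theorem am_Jab_ev : am.eval am_Jab_f = true := by decide +kernel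

theorem am_Jab {G : Type*} [Group G] {γ : ℕ → G} {k : ℕ} {N : List W} (g : Gf am γ k N)
    (e : tyB am k N am_Jab_f = true := by decide +kernel) :
    ∀ e ∈ genW γ (am.ws 6), e ^ 3 = 1 ∧ (∀ g ∈ genW γ (am.ws 6), e * g = g * e) :=
  g.transfer e am_Jab_ev

/-- a formula -/
def am_U1_f : Fm := .all 1 40 [(.l 9, .l 9), (.mul (.l 1) (.l 10), .mul (.l 1) (.l 10))] (.mem 14 (.l 40))

theorem am_U1_ev : am.eval am_U1_f = true := by decide +kernel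

theorem am_U1 {G : Type*} [Group G] {γ : ℕ → G} {k : ℕ} {N : List W} (g : Gf am γ k N)
    (e : tyB am k N am_U1_f = true := by decide +kernel) :
    ∀ e ∈ genW γ (am.ws 1), e * γ 9 = γ 9 * e → e * (γ 1 * γ 10) = γ 1 * γ 10 * e → e ∈ genW γ (am.ws 14) :=
  g.transfer e am_U1_ev

/-- a formula -/
def am_U1i_f : Fm := .all 1 40 [(.l 9, .l 9), (.mul (.l 1) (.l 10), .inv (.mul (.l 1) (.l 10)))] (.and (.mem 14 (.l 40)) (.not (.and (.mem 13 (.mul (.mul (.mul (.l 40) (.l 10)) (.inv (.l 40))) (.inv (.l 10)))) (.mem 13 (.mul (.mul (.mul (.l 40) (.l 3)) (.inv (.l 40))) (.inv (.l 3)))))))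

theorem am_U1i_ev : am.eval am_U1i_f = true := by decide +kernel

theorem am_U1i {G : Type*} [Group G] {γ : ℕ → G} {k : ℕ} {N : List W} (g : Gf am γ k N)
    (e : tyB am k N am_U1i_f = true := by decide +kernel) :
    ∀ e ∈ genW γ (am.ws 1), e * γ 9 = γ 9 * e → e * (γ 1 * γ 10) = (γ 1 * γ 10)⁻¹ * e → e ∈ genW γ (am.ws 14) ∧ ¬ (e * γ 10 * e⁻¹ * (γ 10)⁻¹ ∈ genW γ (am.ws 13) ∧ e * γ 3 * e⁻¹ * (γ 3)⁻¹ ∈ genW γ (am.ws 13)) :=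
  g.transfer e am_U1i_ev

/-- a formula -/
def am_U2_f : Fm := .all 14 40 [] (.imp (.one (.pow (.l 40) 3)) (.or (.mem 6 (.l 40)) (.or (.and (.mem 5 (.mul (.mul (.l 6) (.l 40)) (.inv (.l 6)))) (.and (.not (.mem 3 (.mul (.mul (.l 6) (.l 40)) (.inv (.l 6))))) (.not (.mem 4 (.mul (.mul (.l 6) (.l 40)) (.inv (.l 6))))))) (.ex 14 41 [(.l 40, .mul (.l 40) (.mul (.l 1) (.l 10)))] (.tt)))))

theorem am_U2_ev : am.eval am_U2_f = true := by decide +kernel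

theorem am_U2 {G : Type*} [Group G] {γ : ℕ → G} {k : ℕ} {N : List W} (g : Gf am γ k N)
    (e : tyB am k N am_U2_f = true := by decide +kernel) :
    ∀ e ∈ genW γ (am.ws 14), e ^ 3 = 1 → e ∈ genW γ (am.ws 6) ∨ γ 6 * e * (γ 6)⁻¹ ∈ genW γ (am.ws 5) ∧ γ 6 * e * (γ 6)⁻¹ ∉ genW γ (am.ws 3) ∧ γ 6 * e * (γ 6)⁻¹ ∉ genW γ (am.ws 4) ∨ (∃ k ∈ genW γ (am.ws 14), k * e = e * (γ 1 * γ 10) * k ∧ True) :=
  g.transfer e am_U2_ev

/-- a formula -/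
def am_E1_f : Fm := .all 15 40 [] (.and (.eq (.mul (.mul (.l 4) (.l 40)) (.inv (.l 4))) (.inv (.l 40))) (.or (.one (.l 40)) (.or (.eq (.l 40) (.l 10)) (.or (.eq (.l 40) (.inv (.l 10))) (.or (.eq (.l 40) (.l 1)) (.or (.eq (.l 40) (.inv (.l 1))) (.or (.eq (.l 40) (.mul (.l 1) (.l 10))) (.or (.eq (.l 40) (.inv (.mul (.l 1) (.l 10)))) (.or (.eq (.l 40) (.mul (.l 1) (.inv (.l 10)))) (.eq (.l 40) (.inv (.mul (.l 1) (.inv (.l 10))))))))))))))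

theorem am_E1_ev : am.eval am_E1_f = true := by decide +kernel

theorem am_E1 {G : Type*} [Group G] {γ : ℕ → G} {k : ℕ} {N : List W} (g : Gf am γ k N)
    (e : tyB am k N am_E1_f = true := by decide +kernel) :
    ∀ e ∈ genW γ (am.ws 15), γ 4 * e * (γ 4)⁻¹ = e⁻¹ ∧ (e = 1 ∨ e = γ 10 ∨ e = (γ 10)⁻¹ ∨ e = γ 1 ∨ e = (γ 1)⁻¹ ∨ e = γ 1 * γ 10 ∨ e = (γ 1 * γ 10)⁻¹ ∨ e = γ 1 * (γ 10)⁻¹ ∨ e = (γ 1 * (γ 10)⁻¹)⁻¹) :=
  g.transfer e am_E1_ev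

/-- a formula -/
def am_R6_f : Fm := .all 1 40 [(.l 9, .l 9), (.l 1, .inv (.l 1))] (.not (.and (.mem 20 (.mul (.mul (.mul (.l 40) (.l 10)) (.inv (.l 40))) (.inv (.l 10)))) (.mem 20 (.mul (.mul (.mul (.l 40) (.l 3)) (.inv (.l 40))) (.inv (.l 3))))))

theorem am_R6_ev : am.eval am_R6_f = true := by decide +kernel

theorem am_R6 {G : Type*} [Group G] {γ : ℕ → G} {k : ℕ} {N : List W} (g : Gf am γ k N)
    (e : tyB am k N am_R6_f = true := by decide +kernel) :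
    ∀ e ∈ genW γ (am.ws 1), e * γ 9 = γ 9 * e → e * γ 1 = (γ 1)⁻¹ * e → ¬ (e * γ 10 * e⁻¹ * (γ 10)⁻¹ ∈ genW γ (am.ws 20) ∧ e * γ 3 * e⁻¹ * (γ 3)⁻¹ ∈ genW γ (am.ws 20)) :=
  g.transfer e am_R6_ev

end Cfsg.Lib.As3
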