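import Cfsg.Agent.Lib.As3.AM

/-! Facts about the parabolic subgroups of `L₄(3)` (helper7). -/

set_option autoImplicit false
set_option maxRecDepth 1000000
set_option maxHeartbeats 0

namespace Cfsg.Lib.As3

open Cfsg.Lib.Calc Cfsg.Lib.Grp Cfsg.Lib.T2 Cfsg.Lib.T3

/-- a formula -/
def am_Da_f : Fm := .all 3 40 [] (.or (.one (.l 40)) (.or (.eq (.l 40) (.l 10)) (.or (.eq (.l 40) (.inv (.l 10))) (.ex 8 41 [(.l 9, .l 40)] (.tt)))))

theorem am_Da_ev : am.eval am_Da_f = true := by decide +kernel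

theorem am_Da {G : Type*} [Group G] {γ : ℕ → G} {k : ℕ} {N : List W} (g : Gf am γ k N)
    (e : tyB am k N am_Da_f = true := by decide +kernel) :
    ∀ e ∈ genW γ (am.ws 3), e = 1 ∨ e = γ 10 ∨ e = (γ 10)⁻¹ ∨ (∃ k ∈ genW γ (am.ws 8), k * γ 9 = e * k ∧ True) :=
  g.transfer e am_Da_ev

/-- a formula -/
def am_Db_f : Fm := .all 4 40 [] (.or (.mem 3 (.l 40)) (.ex 8 41 [(.l 3, .l 40)] (.tt)))

theorem am_Db_ev : am.eval am_Db_f = true := by decide +kernel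

theorem am_Db {G : Type*} [Group G] {γ : ℕ → G} {k : ℕ} {N : List W} (g : Gf am γ k N)
    (e : tyB am k N am_Db_f = true := by decide +kernel) :
    ∀ e ∈ genW γ (am.ws 4), e ∈ genW γ (am.ws 3) ∨ (∃ k ∈ genW γ (am.ws 8), k * γ 3 = e * k ∧ True) :=
  g.transfer e am_Db_ev

/-- a formula -/
def am_R1_f : Fm := .all 16 40 [] (.imp (.one (.pow (.l 40) 3)) (.or (.mem 6 (.l 40)) (.or (.mem 5 (.mul (.mul (.l 6) (.l 40)) (.inv (.l 6)))) (.ex 16 41 [(.l 40, .mul (.l 1) (.l 40))] (.tt)))))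

theorem am_R1_ev : am.eval am_R1_f = true := by decide +kernel

theorem am_R1 {G : Type*} [Group G] {γ : ℕ → G} {k : ℕ} {N : List W} (g : Gf am γ k N)
    (e : tyB am k N am_R1_f = true := by decide +kernel) :
    ∀ e ∈ genW γ (am.ws 16), e ^ 3 = 1 → e ∈ genW γ (am.ws 6) ∨ γ 6 * e * (γ 6)⁻¹ ∈ genW γ (am.ws 5) ∨ (∃ k ∈ genW γ (am.ws 16), k * e = γ 1 * e * k ∧ True) :=
  g.transfer e am_R1_ev

/-- a formula -/
def am_R2_f : Fm := .all 1 40 [(.l 1, .l 1)] (.mem 18 (.l 40))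

theorem am_R2_ev : am.eval am_R2_f = true := by decide +kernel

theorem am_R2 {G : Type*} [Group G] {γ : ℕ → G} {k : ℕ} {N : List W} (g : Gf am γ k N)
    (e : tyB am k N am_R2_f = true := by decide +kernel) :
    ∀ e ∈ genW γ (am.ws 1), e * γ 1 = γ 1 * e → e ∈ genW γ (am.ws 18) :=
  g.transfer e am_R2_ev

/-- a formula -/
def am_R3_f : Fm := .all 18 40 [] (.and (.mem 17 (.mul (.mul (.mul (.l 40) (.l 10)) (.inv (.l 40))) (.inv (.l 10)))) (.or (.mem 19 (.l 40)) (.or (.mem 19 (.mul (.l 40) (.l 10))) (.mem 19 (.mul (.l 40) (.inv (.l 10)))))))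

theorem am_R3_ev : am.eval am_R3_f = true := by decide +kernel

theorem am_R3 {G : Type*} [Group G] {γ : ℕ → G} {k : ℕ} {N : List W} (g : Gf am γ k N)
    (e : tyB am k N am_R3_f = true := by decide +kernel) :
    ∀ e ∈ genW γ (am.ws 18), e * γ 10 * e⁻¹ * (γ 10)⁻¹ ∈ genW γ (am.ws 17) ∧ (e ∈ genW γ (am.ws 19) ∨ e * γ 10 ∈ genW γ (am.ws 19) ∨ e * (γ 10)⁻¹ ∈ genW γ (am.ws 19)) :=
  g.transfer e am_R3_ev

/-- a formula -/
def am_R5_f : Fm := .all 19 40 [] (.or (.mem 17 (.l 40)) (.mem 17 (.mul (.l 40) (.l 5))))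

theorem am_R5_ev : am.eval am_R5_f = true := by decide +kernel

theorem am_R5 {G : Type*} [Group G] {γ : ℕ → G} {k : ℕ} {N : List W} (g : Gf am γ k N)
    (e : tyB am k N am_R5_f = true := by decide +kernel) :
    ∀ e ∈ genW γ (am.ws 19), e ∈ genW γ (am.ws 17) ∨ e * γ 5 ∈ genW γ (am.ws 17) :=
  g.transfer e am_R5_ev

/-- a formula -/
def am_R7_f : Fm := .all 17 40 [] (.and (.one (.pow (.l 40) 3)) (.and (.mem 20 (.mul (.mul (.mul (.l 5) (.l 40)) (.inv (.l 5))) (.l 40))) (.all 17 41 [] (.mem 20 (.mul (.mul (.mul (.l 40) (.l 41)) (.inv (.l 40))) (.inv (.l 41)))))))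

theorem am_R7_ev : am.eval am_R7_f = true := by decide +kernel

theorem am_R7 {G : Type*} [Group G] {γ : ℕ → G} {k : ℕ} {N : List W} (g : Gf am γ k N)
    (e : tyB am k N am_R7_f = true := by decide +kernel) :
    ∀ e ∈ genW γ (am.ws 17), e ^ 3 = 1 ∧ γ 5 * e * (γ 5)⁻¹ * e ∈ genW γ (am.ws 20) ∧ (∀ a ∈ genW γ (am.ws 17), e * a * e⁻¹ * a⁻¹ ∈ genW γ (am.ws 20)) :=
  g.transfer e am_R7_ev

/-- a formula -/
def am_T0_f : Fm := .all 1 40 [(.l 5, .l 5)] (.mem 21 (.l 40))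

theorem am_T0_ev : am.eval am_T0_f = true := by decide +kernel

theorem am_T0 {G : Type*} [Group G] {γ : ℕ → G} {k : ℕ} {N : List W} (g : Gf am γ k N)
    (e : tyB am k N am_T0_f = true := by decide +kernel) :
    ∀ e ∈ genW γ (am.ws 1), e * γ 5 = γ 5 * e → e ∈ genW γ (am.ws 21) :=
  g.transfer e am_T0_ev

/-- a formula -/
def am_T1_f : Fm := .all 21 40 [] (.imp (.mem 15 (.mul (.mul (.l 40) (.l 10)) (.inv (.l 40)))) (.imp (.mem 15 (.mul (.mul (.l 40) (.l 1)) (.inv (.l 40)))) (.or (.all 15 41 [] (.eq (.mul (.mul (.l 40) (.l 41)) (.inv (.l 40))) (.l 41))) (.all 15 41 [] (.eq (.mul (.mul (.l 40) (.l 41)) (.inv (.l 40))) (.inv (.l 41)))))))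

theorem am_T1_ev : am.eval am_T1_f = true := by decide +kernel

theorem am_T1 {G : Type*} [Group G] {γ : ℕ → G} {k : ℕ} {N : List W} (g : Gf am γ k N)
    (e : tyB am k N am_T1_f = true := by decide +kernel) :
    ∀ e ∈ genW γ (am.ws 21), e * γ 10 * e⁻¹ ∈ genW γ (am.ws 15) → e * γ 1 * e⁻¹ ∈ genW γ (am.ws 15) → (∀ a ∈ genW γ (am.ws 15), e * a * e⁻¹ = a) ∨ (∀ a ∈ genW γ (am.ws 15), e * a * e⁻¹ = a⁻¹) :=
  g.transfer e am_T1_ev

/-- a formula -/
def am_T2_f : Fm := .all 22 40 [] (.imp (.one (.mul (.l 40) (.l 40))) (.or (.one (.l 40)) (.or (.eq (.l 40) (.l 5)) (.ex 22 41 [(.l 4, .l 40)] (.tt)))))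

theorem am_T2_ev : am.eval am_T2_f = true := by decide +kernel

theorem am_T2 {G : Type*} [Group G] {γ : ℕ → G} {k : ℕ} {N : List W} (g : Gf am γ k N)
    (e : tyB am k N am_T2_f = true := by decide +kernel) :
    ∀ e ∈ genW γ (am.ws 22), e * e = 1 → e = 1 ∨ e = γ 5 ∨ (∃ k ∈ genW γ (am.ws 22), k * γ 4 = e * k ∧ True) :=
  g.transfer e am_T2_ev

/-- a formula -/
def am_cH_f : Fm := .all 10 40 [(.l 10, .l 10)] (.mem 1 (.l 40))

theorem am_cH_ev : am.eval am_cH_f = true := by decide +kernel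

theorem am_cH {G : Type*} [Group G] {γ : ℕ → G} {k : ℕ} {N : List W} (g : Gf am γ k N)
    (e : tyB am k N am_cH_f = true := by decide +kernel) :
    ∀ e ∈ genW γ (am.ws 10), e * γ 10 = γ 10 * e → e ∈ genW γ (am.ws 1) :=
  g.transfer e am_cH_ev

end Cfsg.Lib.As3
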