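import Cfsg.Agent.Lib.As3.AM

/-! Facts about the parabolic subgroups of `L₄(3)` (helper7). -/

set_option autoImplicit false
set_option maxRecDepth 1000000
set_option maxHeartbeats 0

namespace Cfsg.Lib.As3

open Cfsg.Lib.Calc Cfsg.Lib.Grp Cfsg.Lib.T2 Cfsg.Lib.T3

/-- a formula -/
def am_I1_f : Fm := .all 8 40 [] (.imp (.one (.mul (.l 40) (.l 40))) (.or (.one (.l 40)) (.ex 5 41 [(.l 40, .l 5)] (.tt))))

theorem am_I1_ev : am.eval am_I1_f = true := by decide +kernel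

theorem am_I1 {G : Type*} [Group G] {γ : ℕ → G} {k : ℕ} {N : List W} (g : Gf am γ k N)
    (e : tyB am k N am_I1_f = true := by decide +kernel) :
    ∀ e ∈ genW γ (am.ws 8), e * e = 1 → e = 1 ∨ (∃ c ∈ genW γ (am.ws 5), c * e = γ 5 * c ∧ True) :=
  g.transfer e am_I1_ev

/-- a formula -/
def am_I2_f : Fm := .all 7 40 [(.l 5, .l 5), (.l 10, .inv (.l 10))] (.imp (.one (.mul (.l 40) (.l 40))) (.ex 8 41 [(.l 5, .l 5), (.l 40, .l 4)] (.tt)))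

theorem am_I2_ev : am.eval am_I2_f = true := by decide +kernel

theorem am_I2 {G : Type*} [Group G] {γ : ℕ → G} {k : ℕ} {N : List W} (g : Gf am γ k N)
    (e : tyB am k N am_I2_f = true := by decide +kernel) :
    ∀ e ∈ genW γ (am.ws 7), e * γ 5 = γ 5 * e → e * γ 10 = (γ 10)⁻¹ * e → e * e = 1 → ∃ c ∈ genW γ (am.ws 8), c * γ 5 = γ 5 * c ∧ c * e = γ 4 * c ∧ True :=
  g.transfer e am_I2_ev

/-- a formula -/
def am_I3_f : Fm := .all 3 40 [] (.imp (.eq (.mul (.mul (.l 5) (.l 40)) (.inv (.l 5))) (.inv (.l 40))) (.and (.imp (.eq (.mul (.mul (.l 4) (.l 40)) (.inv (.l 4))) (.l 40)) (.or (.one (.l 40)) (.or (.eq (.l 40) (.l 8)) (.eq (.l 40) (.inv (.l 8)))))) (.imp (.eq (.mul (.mul (.l 4) (.l 40)) (.inv (.l 4))) (.inv (.l 40))) (.or (.one (.l 40)) (.or (.eq (.l 40) (.l 9)) (.eq (.l 40) (.inv (.l 9))))))))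

theorem am_I3_ev : am.eval am_I3_f = true := by decide +kernel

theorem am_I3 {G : Type*} [Group G] {γ : ℕ → G} {k : ℕ} {N : List W} (g : Gf am γ k N)
    (e : tyB am k N am_I3_f = true := by decide +kernel) :
    ∀ e ∈ genW γ (am.ws 3), γ 5 * e * (γ 5)⁻¹ = e⁻¹ → (γ 4 * e * (γ 4)⁻¹ = e → e = 1 ∨ e = γ 8 ∨ e = (γ 8)⁻¹) ∧ (γ 4 * e * (γ 4)⁻¹ = e⁻¹ → e = 1 ∨ e = γ 9 ∨ e = (γ 9)⁻¹) :=
  g.transfer e am_I3_ev

/-- a formula -/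
def am_I4_f : Fm := .all 4 40 [] (.imp (.eq (.mul (.mul (.l 5) (.l 40)) (.inv (.l 5))) (.inv (.l 40))) (.and (.imp (.eq (.mul (.mul (.l 4) (.l 40)) (.inv (.l 4))) (.l 40)) (.imp (.eq (.mul (.mul (.mul (.l 9) (.l 40)) (.inv (.l 9))) (.inv (.l 40))) (.l 10)) (.eq (.l 40) (.l 2)))) (.imp (.eq (.mul (.mul (.l 4) (.l 40)) (.inv (.l 4))) (.inv (.l 40))) (.imp (.eq (.mul (.mul (.mul (.l 8) (.l 40)) (.inv (.l 8))) (.inv (.l 40))) (.inv (.l 10))) (.eq (.l 40) (.l 3))))))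

theorem am_I4_ev : am.eval am_I4_f = true := by decide +kernel

theorem am_I4 {G : Type*} [Group G] {γ : ℕ → G} {k : ℕ} {N : List W} (g : Gf am γ k N)
    (e : tyB am k N am_I4_f = true := by decide +kernel) :
    ∀ e ∈ genW γ (am.ws 4), γ 5 * e * (γ 5)⁻¹ = e⁻¹ → (γ 4 * e * (γ 4)⁻¹ = e → γ 9 * e * (γ 9)⁻¹ * e⁻¹ = γ 10 → e = γ 2) ∧ (γ 4 * e * (γ 4)⁻¹ = e⁻¹ → γ 8 * e * (γ 8)⁻¹ * e⁻¹ = (γ 10)⁻¹ → e = γ 3) :=
  g.transfer e am_I4_ev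

/-- a formula -/
def am_I5_f : Fm := .all 7 40 [(.l 8, .mul (.l 8) (.l 9)), (.l 9, .l 9), (.l 2, .mul (.l 3) (.l 2)), (.l 3, .l 3)] (.or (.eq (.l 40) (.l 1)) (.or (.eq (.l 40) (.mul (.l 1) (.l 10))) (.eq (.l 40) (.mul (.l 1) (.inv (.l 10))))))

theorem am_I5_ev : am.eval am_I5_f = true := by decide +kernel

theorem am_I5 {G : Type*} [Group G] {γ : ℕ → G} {k : ℕ} {N : List W} (g : Gf am γ k N)
    (e : tyB am k N am_I5_f = true := by decide +kernel) :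
    ∀ e ∈ genW γ (am.ws 7), e * γ 8 = γ 8 * γ 9 * e → e * γ 9 = γ 9 * e → e * γ 2 = γ 3 * γ 2 * e → e * γ 3 = γ 3 * e → e = γ 1 ∨ e = γ 1 * γ 10 ∨ e = γ 1 * (γ 10)⁻¹ :=
  g.transfer e am_I5_ev

/-- a formula -/
def am_I6_f : Fm := .all 7 40 [(.l 8, .l 9), (.l 9, .l 8), (.l 2, .l 3), (.l 3, .l 2), (.l 4, .mul (.l 4) (.l 5))] (.eq (.l 40) (.l 7))

theorem am_I6_ev : am.eval am_I6_f = true := by decide +kernel

theorem am_I6 {G : Type*} [Group G] {γ : ℕ → G} {k : ℕ} {N : List W} (g : Gf am γ k N)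
    (e : tyB am k N am_I6_f = true := by decide +kernel) :
    ∀ e ∈ genW γ (am.ws 7), e * γ 8 = γ 9 * e → e * γ 9 = γ 8 * e → e * γ 2 = γ 3 * e → e * γ 3 = γ 2 * e → e * γ 4 = γ 4 * γ 5 * e → e = γ 7 :=
  g.transfer e am_I6_ev

/-- a formula -/
def am_cs_f : Fm := .all 6 40 [(.l 4, .l 4)] (.one (.l 40))

theorem am_cs_ev : am.eval am_cs_f = true := by decide +kernel

theorem am_cs {G : Type*} [Group G] {γ : ℕ → G} {k : ℕ} {N : List W} (g : Gf am γ k N)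
    (e : tyB am k N am_cs_f = true := by decide +kernel) :
    ∀ e ∈ genW γ (am.ws 6), e * γ 4 = γ 4 * e → e = 1 :=
  g.transfer e am_cs_ev

/-- a formula -/
def am_B0_f : Fm := .all 10 40 [(.l 5, .l 5)] (.mem 23 (.l 40))

theorem am_B0_ev : am.eval am_B0_f = true := by decide +kernel

theorem am_B0 {G : Type*} [Group G] {γ : ℕ → G} {k : ℕ} {N : List W} (g : Gf am γ k N)
    (e : tyB am k N am_B0_f = true := by decide +kernel) :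
    ∀ e ∈ genW γ (am.ws 10), e * γ 5 = γ 5 * e → e ∈ genW γ (am.ws 23) :=
  g.transfer e am_B0_ev

/-- a formula -/
def am_Bu_f : Fm := .all 23 40 [] (.and (.imp (.mem 15 (.mul (.mul (.l 40) (.mul (.l 1) (.l 10))) (.inv (.l 40)))) (.mem 13 (.mul (.mul (.l 40) (.mul (.l 1) (.l 10))) (.inv (.l 40))))) (.imp (.mem 15 (.mul (.mul (.l 40) (.mul (.l 1) (.inv (.l 10)))) (.inv (.l 40)))) (.mem 27 (.mul (.mul (.l 40) (.mul (.l 1) (.inv (.l 10)))) (.inv (.l 40))))))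

theorem am_Bu_ev : am.eval am_Bu_f = true := by decide +kernel

theorem am_Bu {G : Type*} [Group G] {γ : ℕ → G} {k : ℕ} {N : List W} (g : Gf am γ k N)
    (e : tyB am k N am_Bu_f = true := by decide +kernel) :
    ∀ e ∈ genW γ (am.ws 23), (e * (γ 1 * γ 10) * e⁻¹ ∈ genW γ (am.ws 15) → e * (γ 1 * γ 10) * e⁻¹ ∈ genW γ (am.ws 13)) ∧ (e * (γ 1 * (γ 10)⁻¹) * e⁻¹ ∈ genW γ (am.ws 15) → e * (γ 1 * (γ 10)⁻¹) * e⁻¹ ∈ genW γ (am.ws 27)) :=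
  g.transfer e am_Bu_ev

/-- a formula -/
def am_B1_f : Fm := .all 23 40 [] (.imp (.one (.mul (.l 40) (.l 40))) (.all 15 41 [] (.imp (.eq (.mul (.mul (.l 40) (.l 41)) (.inv (.l 40))) (.inv (.l 41))) (.or (.mem 13 (.l 41)) (.or (.eq (.mul (.l 40) (.mul (.l 1) (.l 10))) (.mul (.mul (.l 1) (.l 10)) (.l 40))) (.ex 23 42 [(.mul (.mul (.l 6) (.l 5)) (.inv (.l 6)), .l 40)] (.tt)))))))

theorem am_B1_ev : am.eval am_B1_f = true := by decide +kernel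

theorem am_B1 {G : Type*} [Group G] {γ : ℕ → G} {k : ℕ} {N : List W} (g : Gf am γ k N)
    (e : tyB am k N am_B1_f = true := by decide +kernel) :
    ∀ y ∈ genW γ (am.ws 23), y * y = 1 → ∀ e ∈ genW γ (am.ws 15), y * e * y⁻¹ = e⁻¹ → e ∈ genW γ (am.ws 13) ∨ y * (γ 1 * γ 10) = γ 1 * γ 10 * y ∨ (∃ k ∈ genW γ (am.ws 23), k * (γ 6 * γ 5 * (γ 6)⁻¹) = y * k ∧ True) :=
  g.transfer e am_B1_ev

/-- a formula -/
def am_B2_f : Fm := .all 23 40 [(.mul (.l 1) (.l 10), .mul (.l 1) (.l 10)), (.mul (.l 1) (.inv (.l 10)), .mul (.l 1) (.inv (.l 10)))] (.imp (.one (.mul (.l 40) (.l 40))) (.or (.one (.l 40)) (.eq (.l 40) (.l 5))))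

theorem am_B2_ev : am.eval am_B2_f = true := by decide +kernel

theorem am_B2 {G : Type*} [Group G] {γ : ℕ → G} {k : ℕ} {N : List W} (g : Gf am γ k N)
    (e : tyB am k N am_B2_f = true := by decide +kernel) :
    ∀ e ∈ genW γ (am.ws 23), e * (γ 1 * γ 10) = γ 1 * γ 10 * e → e * (γ 1 * (γ 10)⁻¹) = γ 1 * (γ 10)⁻¹ * e → e * e = 1 → e = 1 ∨ e = γ 5 :=
  g.transfer e am_B2_ev

/-- a formula -/
def am_B3_f : Fm := .all 23 40 [(.mul (.l 1) (.l 10), .mul (.l 1) (.l 10))] (.or (.mem 26 (.l 40)) (.or (.and (.mem 15 (.mul (.mul (.mul (.l 40) (.mul (.l 1) (.inv (.l 10)))) (.inv (.l 40))) (.inv (.mul (.l 1) (.inv (.l 10)))))) (.not (.mem 13 (.mul (.mul (.mul (.l 40) (.mul (.l 1) (.inv (.l 10)))) (.inv (.l 40))) (.inv (.mul (.l 1) (.inv (.l 10)))))))) (.and (.mem 15 (.mul (.l 40) (.l 40))) (.not (.mem 13 (.mul (.l 40) (.l 40)))))))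

theorem am_B3_ev : am.eval am_B3_f = true := by decide +kernel

theorem am_B3 {G : Type*} [Group G] {γ : ℕ → G} {k : ℕ} {N : List W} (g : Gf am γ k N)
    (e : tyB am k N am_B3_f = true := by decide +kernel) :
    ∀ e ∈ genW γ (am.ws 23), e * (γ 1 * γ 10) = γ 1 * γ 10 * e → e ∈ genW γ (am.ws 26) ∨ e * (γ 1 * (γ 10)⁻¹) * e⁻¹ * (γ 1 * (γ 10)⁻¹)⁻¹ ∈ genW γ (am.ws 15) ∧ e * (γ 1 * (γ 10)⁻¹) * e⁻¹ * (γ 1 * (γ 10)⁻¹)⁻¹ ∉ genW γ (am.ws 13) ∨ e * e ∈ genW γ (am.ws 15) ∧ e * e ∉ genW γ (am.ws 13) :=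
  g.transfer e am_B3_ev

/-- a formula -/
def am_B4_f : Fm := .all 25 40 [] (.or (.one (.l 40)) (.or (.and (.mem 5 (.l 40)) (.and (.not (.mem 3 (.l 40))) (.not (.mem 4 (.l 40))))) (.or (.and (.mem 5 (.mul (.mul (.l 6) (.l 40)) (.inv (.l 6)))) (.and (.not (.mem 3 (.mul (.mul (.l 6) (.l 40)) (.inv (.l 6))))) (.not (.mem 4 (.mul (.mul (.l 6) (.l 40)) (.inv (.l 6))))))) (.or (.and (.mem 5 (.mul (.mul (.mul (.l 6) (.l 2)) (.l 40)) (.inv (.mul (.l 6) (.l 2))))) (.and (.not (.mem 3 (.mul (.mul (.mul (.l 6) (.l 2)) (.l 40)) (.inv (.mul (.l 6) (.l 2)))))) (.not (.mem 4 (.mul (.mul (.mul (.l 6) (.l 2)) (.l 40)) (.inv (.mul (.l 6) (.l 2)))))))) (.and (.mem 5 (.mul (.mul (.mul (.l 6) (.inv (.l 2))) (.l 40)) (.inv (.mul (.l 6) (.inv (.l 2)))))) (.and (.not (.mem 3 (.mul (.mul (.mul (.l 6) (.inv (.l 2))) (.l 40)) (.inv (.mul (.l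 6) (.inv (.l 2))))))) (.not (.mem 4 (.mul (.mul (.mul (.l 6) (.inv (.l 2))) (.l 40)) (.inv (.mul (.l 6) (.inv (.l 2)))))))))))))

theorem am_B4_ev : am.eval am_B4_f = true := by decide +kernel

theorem am_B4 {G : Type*} [Group G] {γ : ℕ → G} {k : ℕ} {N : List W} (g : Gf am γ k N)
    (e : tyB am k N am_B4_f = true := by decide +kernel) :
    ∀ e ∈ genW γ (am.ws 25), e = 1 ∨ e ∈ genW γ (am.ws 5) ∧ e ∉ genW γ (am.ws 3) ∧ e ∉ genW γ (am.ws 4) ∨ γ 6 * e * (γ 6)⁻¹ ∈ genW γ (am.ws 5) ∧ γ 6 * e * (γ 6)⁻¹ ∉ genW γ (am.ws 3) ∧ γ 6 * e * (γ 6)⁻¹ ∉ genW γ (am.ws 4) ∨ γ 6 * γ 2 * e * (γ 6 * γ 2)⁻¹ ∈ genW γ (am.ws 5) ∧ γ 6 * γ 2 * e * (γ 6 * γ 2)⁻¹ ∉ genW γ (am.ws 3) ∧ γ 6 * γ 2 * e * (γ 6 * γ 2)⁻¹ ∉ genW γ (am.ws 4) ∨ γ 6 * (γ 2)⁻¹ * e * (γ 6 * (γ 2)⁻¹)⁻¹ ∈ genW γ (am.ws 5) ∧ γ 6 * (γ 2)⁻¹ * e * (γ 6 * (γ 2)⁻¹)⁻¹ ∉ genW γ (am.ws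 3) ∧ γ 6 * (γ 2)⁻¹ * e * (γ 6 * (γ 2)⁻¹)⁻¹ ∉ genW γ (am.ws 4) :=
  g.transfer e am_B4_ev

/-- a formula -/
def am_B5_f : Fm := .all 24 40 [] (.imp (.one (.mul (.l 40) (.l 40))) (.or (.one (.l 40)) (.or (.eq (.l 40) (.l 5)) (.or (.ex 23 41 [(.mul (.mul (.l 6) (.l 5)) (.inv (.l 6)), .l 40)] (.tt)) (.or (.ex 23 41 [(.mul (.mul (.mul (.mul (.mul (.mul (.mul (.l 2) (.l 6)) (.l 2)) (.l 8)) (.l 11)) (.l 8)) (.l 5)) (.inv (.mul (.mul (.mul (.mul (.mul (.l 2) (.l 6)) (.l 2)) (.l 8)) (.l 11)) (.l 8))), .l 40)] (.tt)) (.or (.ex 23 41 [(.mul (.mul (.mul (.mul (.mul (.mul (.mul (.mul (.l 2) (.l 2)) (.l 6)) (.l 8)) (.l 11)) (.l 2)) (.l 8)) (.l 5)) (.inv (.mul (.mul (.mul (.mul (.mul (.mul (.l 2) (.l 2)) (.l 6)) (.l 8)) (.l 11)) (.l 2)) (.l 8))), .l 40)] (.tt)) (.or (.ex 23 41 [(.mul (.l 11) (.l 6), .l 40)] (.tt)) (.or (.ex 23 41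 [(.mul (.mul (.mul (.mul (.l 2) (.l 6)) (.l 2)) (.mul (.l 11) (.l 6))) (.inv (.mul (.mul (.l 2) (.l 6)) (.l 2))), .l 40)] (.tt)) (.ex 23 41 [(.mul (.mul (.mul (.l 6) (.l 7)) (.mul (.l 11) (.l 6))) (.inv (.mul (.l 6) (.l 7))), .l 40)] (.tt))))))))))

theorem am_B5_ev : am.eval am_B5_f = true := by decide +kernel

theorem am_B5 {G : Type*} [Group G] {γ : ℕ → G} {k : ℕ} {N : List W} (g : Gf am γ k N)
    (e : tyB am k N am_B5_f = true := by decide +kernel) :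
    ∀ e ∈ genW γ (am.ws 24), e * e = 1 → e = 1 ∨ e = γ 5 ∨ (∃ k ∈ genW γ (am.ws 23), k * (γ 6 * γ 5 * (γ 6)⁻¹) = e * k ∧ True) ∨ (∃ k ∈ genW γ (am.ws 23), k * (γ 2 * γ 6 * γ 2 * γ 8 * γ 11 * γ 8 * γ 5 * (γ 2 * γ 6 * γ 2 * γ 8 * γ 11 * γ 8)⁻¹) = e * k ∧ True) ∨ (∃ k ∈ genW γ (am.ws 23), k * (γ 2 * γ 2 * γ 6 * γ 8 * γ 11 * γ 2 * γ 8 * γ 5 * (γ 2 * γ 2 * γ 6 * γ 8 * γ 11 * γ 2 * γ 8)⁻¹) = e * k ∧ True) ∨ (∃ k ∈ genW γ (am.ws 23), k * (γ 11 * γ 6) = e * k ∧ True) ∨ (∃ k ∈ genW γ (am.ws 23), k * (γ 2 * γ 6 * γ 2 * (γ 11 * γ 6) * (γ 2 * γ 6 * γ 2)⁻¹) = e * k ∧ True) ∨ (∃ k ∈ genW γ (am.ws 23), k * (γ 6 * γ 7 * (γ 11 * γ 6) * (γ 6 * γ 7)⁻¹) = e * k ∧ True) :=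
  g.transfer e am_B5_ev

end Cfsg.Lib.As3
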